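import Cfsg.Agent.H728.BS.Raw

/-!
# Bit-sliced programs over the field with 81 elements (helper728, S5925)

`Ex` : expressions in variables `v 0, v 1, …` over `F₈₁ = F₃[g]`, `g ^ 4 = -g + 1`;
`chk N ts defs cs exc` : kernel check: on the `N` lanes of the table `ts` (trit inputs `v 0 … v (n-1)`), with
`v (n + j) := defs[j]`, every lane where all the constraints `cs` vanish is in the list `exc`.
-/

set_option autoImplicit false

namespace Cfsg.Agent.H728.BS

open Cfsg.Agent.H516.BS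

/-- Expressions. -/
inductive Ex
  | v (i : ℕ)
  | pw (n : ℕ)
  | add (x y : Ex)
  | sub (x y : Ex)
  | neg (x : Ex)
  | mul (x y : Ex)
  | fr (x : Ex)

/-- The value of an expression: `pw n` is `g ^ n`, `fr x` is `x ^ 3`. -/
def Ex.eval {F : Type*} [Field F] (g : F) (v : ℕ → F) : Ex → F
  | .v i => v i
  | .pw n => g ^ n
  | .add x y => x.eval g v + y.eval g v
  | .sub x y => x.eval g v - y.eval g v
  | .neg x => - x.eval g v
  | .mul x y => x.eval g v * y.eval g v
  | .fr x => x.eval g v ^ 3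

/-- The element of a list, last-in first. -/
def getr (rs : List Q) (n : ℕ) : Q :=
  List.rec (motive := fun _ => ℕ → Q) (fun _ => ⟨⟨0, 0⟩, ⟨0, 0⟩, ⟨0, 0⟩, ⟨0, 0⟩⟩)
    (fun h _ ih n => Nat.rec (motive := fun _ => Q) h (fun m _ => ih m) n) rs n

/-- The planes of a constant trit. -/
def tc (O c : ℕ) : T :=
  Nat.rec (motive := fun _ => T) ⟨0, 0⟩ (fun k _ => Nat.rec (motive := fun _ => T) ⟨O, 0⟩ (fun _ _ => ⟨O, O⟩) k) c

/-- The coefficients of `g ^ n` (codes 0, 1, 2). -/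
def gp (n : ℕ) : ℕ × ℕ × ℕ × ℕ :=
  Nat.rec (motive := fun _ => ℕ × ℕ × ℕ × ℕ) (1, 0, 0, 0)
    (fun _ p => (p.2.2.2, Nat.mod (Nat.add p.1 (Nat.mul 2 p.2.2.2)) 3, p.2.1, p.2.2.1)) n

def qpw (O n : ℕ) : Q := ⟨tc O (gp n).1, tc O (gp n).2.1, tc O (gp n).2.2.1, tc O (gp n).2.2.2⟩

/-- Evaluation on planes. -/
noncomputable def ev (O L : ℕ) (rs : List Q) (e : Ex) : (Q → Bool) → Bool :=
  Ex.rec (motive := fun _ => (Q → Bool) → Bool)
    (fun j k => Bool.rec (motive := fun _ => Bool) false (k (getr rs (Nat.sub L (Nat.succ j)))) (Nat.ble (Nat.succ j) L))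
    (fun n k => fo (qpw O n) k)
    (fun _ _ x y k => x fun X => y fun Y => fo (qadd X Y) k)
    (fun _ _ x y k => x fun X => y fun Y => fo (qsub X Y) k)
    (fun _ x k => x fun X => fo (qneg X) k)
    (fun _ _ x y k => x fun X => y fun Y => fo (qmul X Y) k)
    (fun _ x k => x fun X => fo (qfrob X) k) e

theorem ev_v (O L : ℕ) (rs : List Q) (j : ℕ) (k : Q → Bool) :
    ev O L rs (.v j) k = Bool.rec (motive := fun _ => Bool) false (k (getr rs (Nat.sub L (Nat.succ j))))
      (Nat.ble (Nat.succ j) L) := rfl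
theorem ev_pw (O L : ℕ) (rs : List Q) (n : ℕ) (k : Q → Bool) : ev O L rs (.pw n) k = k (qpw O n) := rfl
theorem ev_add (O L : ℕ) (rs : List Q) (x y : Ex) (k : Q → Bool) :
    ev O L rs (.add x y) k = ev O L rs x fun X => ev O L rs y fun Y => k (X.add Y) := rfl
theorem ev_sub (O L : ℕ) (rs : List Q) (x y : Ex) (k : Q → Bool) :
    ev O L rs (.sub x y) k = ev O L rs x fun X => ev O L rs y fun Y => k (X.sub Y) := rfl
theorem ev_neg (O L : ℕ) (rs : List Q) (x : Ex) (k : Q → Bool) :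
    ev O L rs (.neg x) k = ev O L rs x fun X => k (X.neg) := rfl
theorem ev_mul (O L : ℕ) (rs : List Q) (x y : Ex) (k : Q → Bool) :
    ev O L rs (.mul x y) k = ev O L rs x fun X => ev O L rs y fun Y => k (X.mul Y) := rfl
theorem ev_fr (O L : ℕ) (rs : List Q) (x : Ex) (k : Q → Bool) :
    ev O L rs (.fr x) k = ev O L rs x fun X => k (X.frob) := rfl

/-- Running the definitions. -/
noncomputable def run (O : ℕ) (ds : List Ex) : ℕ → List Q → (ℕ → List Q → Bool) → Bool :=
  List.rec (motive := fun _ => ℕ → List Q → (ℕ → List Q → Bool) → Bool) (fun L rs k => k L rs)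
    (fun d _ ih L rs k => ev O L rs d fun X => fc (Nat.succ L) fun L' => ih L' (X :: rs) k) ds

theorem run_nil (O L : ℕ) (rs : List Q) (k : ℕ → List Q → Bool) : run O [] L rs k = k L rs := rfl
theorem run_cons (O L : ℕ) (rs : List Q) (k : ℕ → List Q → Bool) (d : Ex) (ds : List Ex) :
    run O (d :: ds) L rs k = ev O L rs d fun X => run O ds (L + 1) (X :: rs) k := rfl

/-- Running the constraints. -/
noncomputable def cons (O L : ℕ) (rs : List Q) (cs : List Ex) : ℕ → (ℕ → Bool) → Bool :=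
  List.rec (motive := fun _ => ℕ → (ℕ → Bool) → Bool) (fun acc k => k acc)
    (fun c _ ih acc k => ev O L rs c fun X => fc (Nat.lor acc (qnz X)) fun a => ih a k) cs

theorem cons_nil (O L : ℕ) (rs : List Q) (acc : ℕ) (k : ℕ → Bool) : cons O L rs [] acc k = k acc := rfl
theorem cons_cons (O L : ℕ) (rs : List Q) (c : Ex) (cs : List Ex) (acc : ℕ) (k : ℕ → Bool) :
    cons O L rs (c :: cs) acc k = ev O L rs c fun X => cons O L rs cs (acc ||| X.nz) k := rfl

/-- Loading the inputs. -/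
def ini (ts : List T) : ℕ → List Q → (ℕ → List Q → Bool) → Bool :=
  List.rec (motive := fun _ => ℕ → List Q → (ℕ → List Q → Bool) → Bool) (fun L rs k => k L rs)
    (fun t _ ih L rs k => fc t.m fun a => fc t.s fun b => fc (Nat.succ L) fun L' =>
      ih L' (⟨⟨a, b⟩, ⟨0, 0⟩, ⟨0, 0⟩, ⟨0, 0⟩⟩ :: rs) k) ts

theorem ini_nil (L : ℕ) (rs : List Q) (k : ℕ → List Q → Bool) : ini [] L rs k = k L rs := rfl
theorem ini_cons (t : T) (ts : List T) (L : ℕ) (rs : List Q) (k : ℕ → List Q → Bool) :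
    ini (t :: ts) L rs k = ini ts (L + 1) (⟨t, .zero, .zero, .zero⟩ :: rs) k := rfl

/-- **The check.** `O` is `2 ^ N - 1`, `m` the mask of the exceptional lanes. -/
noncomputable def chk (N : ℕ) (ts : List T) (defs cs : List Ex) (m : ℕ) : Bool :=
  fc (Nat.sub (Nat.pow 2 N) 1) fun O => fc m fun m => ini ts 0 [] fun L rs => run O defs L rs fun L' rs' =>
    cons O L' rs' cs m fun acc => Nat.beq acc O

section sound

variable {F : Type*} [Field F] [CharP F 3] {g : F} {i : ℕ} {v : ℕ → F}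

/-- The registers represent the variables in lane `i`. -/
def Good (g : F) (i : ℕ) (v : ℕ → F) (L : ℕ) (rs : List Q) : Prop :=
  ∀ j < L, R g i (getr rs (L - (j + 1))) (v j)

theorem getr_zero (X : Q) (rs : List Q) : getr (X :: rs) 0 = X := rfl

theorem getr_succ (X : Q) (rs : List Q) (n : ℕ) : getr (X :: rs) (n + 1) = getr rs n := rfl

theorem Good.nil : Good g i v 0 [] := fun _ h => absurd h (Nat.not_lt_zero _)

theorem Good.cons {L : ℕ} {rs : List Q} (h : Good g i v L rs) {X : Q} (hX : R g i X (v L)) :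
    Good g i v (L + 1) (X :: rs) := by
  intro j hj
  rcases Nat.lt_succ_iff_lt_or_eq.1 hj with h1 | h1
  · have : L + 1 - (j + 1) = (L - (j + 1)) + 1 := by omega
    rw [this, getr_succ]
    exact h j h1
  · subst h1
    rw [Nat.sub_self, getr_zero]
    exact hX

theorem rt_tc {O : ℕ} (hO : O.testBit i = true) {c : ℕ} (hc : c < 3) : T.Rt i (tc O c) (c : ZMod 3) := by
  have h : c = 0 ∨ c = 1 ∨ c = 2 := by omega
  rcases h with rfl | rfl | rfl
  · exact T.Rt.zero i
  · refine ⟨?_, ?_⟩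
    · show O.testBit i = _
      rw [hO]
      decide
    · show (0 : ℕ).testBit i = _
      rw [Nat.zero_testBit]
      decide
  · refine ⟨?_, ?_⟩
    · show O.testBit i = _
      rw [hO]
      decide
    · show O.testBit i = _
      rw [hO]
      decide

theorem gp_succ (n : ℕ) : gp (n + 1) = ((gp n).2.2.2, ((gp n).1 + 2 * (gp n).2.2.2) % 3, (gp n).2.1, (gp n).2.2.1) := rfl

theorem gp_lt (n : ℕ) : (gp n).1 < 3 ∧ (gp n).2.1 < 3 ∧ (gp n).2.2.1 < 3 ∧ (gp n).2.2.2 < 3 := by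
  induction n with
  | zero => decide
  | succ n ih =>
    rw [gp_succ]
    exact ⟨ih.2.2.2, Nat.mod_lt _ (by norm_num), ih.2.1, ih.2.2.1⟩

theorem gp_toF (hg : g ^ 4 = -g + 1) (n : ℕ) :
    toF g ⟨((gp n).1 : ZMod 3), ((gp n).2.1 : ZMod 3), ((gp n).2.2.1 : ZMod 3), ((gp n).2.2.2 : ZMod 3)⟩ = g ^ n := by
  induction n with
  | zero =>
    show toF g ⟨((1 : ℕ) : ZMod 3), ((0 : ℕ) : ZMod 3), ((0 : ℕ) : ZMod 3), ((0 : ℕ) : ZMod 3)⟩ = g ^ 0
    simp [toF]
  | succ n ih =>
    have e : (((((gp n).1 + 2 * (gp n).2.2.2) % 3 : ℕ)) : ZMod 3) = (gp n).1 - (gp n).2.2.2 := by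
      rw [ZMod.natCast_mod]
      push_cast
      have h3 : (3 : ZMod 3) = 0 := by decide
      linear_combination ((gp n).2.2.2 : ZMod 3) * h3
    rw [gp_succ, pow_succ, ← ih]
    simp only [toF, e, map_sub]
    linear_combination -(io F ((gp n).2.2.2 : ZMod 3)) * hg

theorem R_pw (hg : g ^ 4 = -g + 1) {O : ℕ} (hO : O.testBit i = true) (n : ℕ) : R g i (qpw O n) (g ^ n) := by
  refine ⟨⟨((gp n).1 : ZMod 3), ((gp n).2.1 : ZMod 3), ((gp n).2.2.1 : ZMod 3), ((gp n).2.2.2 : ZMod 3)⟩,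
    ⟨rt_tc hO (gp_lt n).1, rt_tc hO (gp_lt n).2.1, rt_tc hO (gp_lt n).2.2.1, rt_tc hO (gp_lt n).2.2.2⟩,
    (gp_toF hg n).symm⟩

theorem ev_sound (hg : g ^ 4 = -g + 1) {O L : ℕ} {rs : List Q} (hO : O.testBit i = true) (hr : Good g i v L rs) :
    ∀ (e : Ex) (k : Q → Bool), ev O L rs e k = true → ∃ X, R g i X (e.eval g v) ∧ k X = true := by
  intro e
  induction e with
  | v j =>
    intro k h
    rw [ev_v] at h
    by_cases hj : Nat.ble (Nat.succ j) L = true
    · rw [hj] at h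
      exact ⟨_, hr j (Nat.le_of_ble_eq_true hj), h⟩
    · rw [Bool.not_eq_true] at hj
      rw [hj] at h
      exact absurd (show false = true from h) (by decide)
  | pw n =>
    intro k h
    exact ⟨_, R_pw hg hO n, h⟩
  | add x y ihx ihy =>
    intro k h
    rw [ev_add] at h
    obtain ⟨X, hX, h⟩ := ihx _ h
    obtain ⟨Y, hY, h⟩ := ihy _ h
    exact ⟨_, hX.add hY, h⟩
  | sub x y ihx ihy =>
    intro k h
    rw [ev_sub] at h
    obtain ⟨X, hX, h⟩ := ihx _ h
    obtain ⟨Y, hY, h⟩ := ihy _ h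
    exact ⟨_, hX.sub hY, h⟩
  | neg x ihx =>
    intro k h
    rw [ev_neg] at h
    obtain ⟨X, hX, h⟩ := ihx _ h
    exact ⟨_, hX.neg, h⟩
  | mul x y ihx ihy =>
    intro k h
    rw [ev_mul] at h
    obtain ⟨X, hX, h⟩ := ihx _ h
    obtain ⟨Y, hY, h⟩ := ihy _ h
    exact ⟨_, hX.mul hg hY, h⟩
  | fr x ihx =>
    intro k h
    rw [ev_fr] at h
    obtain ⟨X, hX, h⟩ := ihx _ h
    exact ⟨_, hX.frob hg, h⟩

/-- The definitions hold. -/
def Defs (g : F) (v : ℕ → F) : ℕ → List Ex → Prop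
  | _, [] => True
  | L, d :: ds => v L = d.eval g v ∧ Defs g v (L + 1) ds

theorem run_sound (hg : g ^ 4 = -g + 1) {O : ℕ} (hO : O.testBit i = true) :
    ∀ (ds : List Ex) (L : ℕ) (rs : List Q) (k : ℕ → List Q → Bool), Good g i v L rs → Defs g v L ds →
      run O ds L rs k = true → ∃ L' rs', Good g i v L' rs' ∧ k L' rs' = true := by
  intro ds
  induction ds with
  | nil =>
    intro L rs k hr _ h
    exact ⟨L, rs, hr, h⟩
  | cons d ds ih =>
    intro L rs k hr hd h
    rw [run_cons] at h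
    obtain ⟨X, hX, h⟩ := ev_sound hg hO hr _ _ h
    rw [← hd.1] at hX
    exact ih (L + 1) (X :: rs) k (hr.cons hX) hd.2 h

theorem cons_sound (hg : g ^ 4 = -g + 1) {O L : ℕ} {rs : List Q} (hO : O.testBit i = true) (hr : Good g i v L rs) :
    ∀ (cs : List Ex) (acc : ℕ) (k : ℕ → Bool), (∀ c ∈ cs, c.eval g v = 0) → cons O L rs cs acc k = true →
      ∃ acc' : ℕ, acc'.testBit i = acc.testBit i ∧ k acc' = true := by
  intro cs
  induction cs with
  | nil =>
    intro acc k _ h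
    exact ⟨acc, rfl, h⟩
  | cons c cs ih =>
    intro acc k hc h
    rw [cons_cons] at h
    obtain ⟨X, hX, h⟩ := ev_sound hg hO hr _ _ h
    obtain ⟨acc', h1, h2⟩ := ih _ _ (fun c' hc' => hc c' (List.mem_cons_of_mem _ hc')) h
    refine ⟨acc', ?_, h2⟩
    rw [h1, Nat.testBit_or, hX.nz hg (hc c List.mem_cons_self), Bool.or_false]

/-- Lane `i` of the table gives the values of the first variables. -/
def Lane (F : Type*) [Field F] [CharP F 3] (i : ℕ) (v : ℕ → F) : ℕ → List T → Prop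
  | _, [] => True
  | L, t :: ts => (∃ c : ZMod 3, v L = io F c ∧ t.Rt i c) ∧ Lane F i v (L + 1) ts

theorem ini_sound :
    ∀ (ts : List T) (L : ℕ) (rs : List Q) (k : ℕ → List Q → Bool), Good g i v L rs → Lane F i v L ts →
      ini ts L rs k = true → ∃ rs', Good g i v (L + ts.length) rs' ∧ k (L + ts.length) rs' = true := by
  intro ts
  induction ts with
  | nil =>
    intro L rs k hr _ h
    exact ⟨rs, hr, h⟩
  | cons t ts ih =>
    intro L rs k hr ht h
    rw [ini_cons] at h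
    obtain ⟨⟨c, hc, hR⟩, ht⟩ := ht
    have hX : R g i ⟨t, .zero, .zero, .zero⟩ (v L) :=
      ⟨⟨c, 0, 0, 0⟩, ⟨hR, T.Rt.zero i, T.Rt.zero i, T.Rt.zero i⟩, by simp [toF, hc]⟩
    have h1 := ih (L + 1) _ k (hr.cons hX) ht h
    rw [show L + 1 + ts.length = L + (t :: ts).length by simp; omega] at h1
    exact h1

/-- **Soundness of the check.** -/
theorem chk_sound (hg : g ^ 4 = -g + 1) {N : ℕ} {ts : List T} {defs cs : List Ex} {m : ℕ}
    (h : chk N ts defs cs m = true) (hi : i < N) (hl : Lane F i v 0 ts) (hd : Defs g v ts.length defs)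
    (hc : ∀ c ∈ cs, c.eval g v = 0) : m.testBit i = true := by
  have hO : (2 ^ N - 1).testBit i = true := by
    rw [Nat.testBit_two_pow_sub_one]
    exact decide_eq_true hi
  have h1 : (ini ts 0 [] fun L rs => run (2 ^ N - 1) defs L rs fun L' rs' =>
      cons (2 ^ N - 1) L' rs' cs m fun acc => Nat.beq acc (2 ^ N - 1)) = true := h
  obtain ⟨rs, hr, h2⟩ := ini_sound ts 0 [] _ Good.nil hl h1
  rw [zero_add] at hr h2
  obtain ⟨L', rs', hr', h3⟩ := run_sound hg hO defs _ _ _ hr hd h2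
  obtain ⟨acc', h4, h5⟩ := cons_sound hg hO hr' cs m _ hc h3
  rw [Nat.eq_of_beq_eq_true h5, hO] at h4
  exact h4.symm

end sound

end Cfsg.Agent.H728.BS
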