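import Cfsg.Agent.H516.BS.Basic

/-!
# Bit-sliced arithmetic in the field with 81 elements: raw kernel form of helper516's operations (helper728, S5925)
-/

set_option autoImplicit false

namespace Cfsg.Agent.H728.BS

open Cfsg.Agent.H516.BS

/-- Forcing: in the kernel the literal value of `n` is substituted in `k`. -/
def fc {α : Type} (n : Nat) (k : Nat → α) : α :=
  Nat.rec (motive := fun _ => α) (k 0) (fun m _ => k m) (Nat.succ n)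

theorem fc_eq {α : Type} (n : Nat) (k : Nat → α) : fc n k = k n := rfl

def tadd (x y : T) : T :=
  ⟨Nat.lor (Nat.xor (Nat.xor x.m y.s) x.s) (Nat.xor (Nat.xor x.s y.m) y.s),
    Nat.land (Nat.xor x.m y.s) (Nat.xor x.s y.m)⟩

theorem tadd_eq (x y : T) : tadd x y = x.add y := rfl

def tsub (x y : T) : T :=
  ⟨Nat.lor (Nat.xor x.m y.m) (Nat.xor x.s y.s), Nat.land (Nat.xor (Nat.xor x.m y.m) y.s) (Nat.xor y.m x.s)⟩

theorem tsub_eq (x y : T) : tsub x y = x.sub y := rfl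

def tneg (x : T) : T := ⟨x.m, Nat.xor x.m x.s⟩

theorem tneg_eq (x : T) : tneg x = x.neg := rfl

def tmul (x y : T) : T := ⟨Nat.land x.m y.m, Nat.land (Nat.land x.m y.m) (Nat.xor x.s y.s)⟩

theorem tmul_eq (x y : T) : tmul x y = x.mul y := rfl

def qadd (X Y : Q) : Q := ⟨tadd X.c0 Y.c0, tadd X.c1 Y.c1, tadd X.c2 Y.c2, tadd X.c3 Y.c3⟩

theorem qadd_eq (X Y : Q) : qadd X Y = X.add Y := rfl

def qsub (X Y : Q) : Q := ⟨tsub X.c0 Y.c0, tsub X.c1 Y.c1, tsub X.c2 Y.c2, tsub X.c3 Y.c3⟩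

theorem qsub_eq (X Y : Q) : qsub X Y = X.sub Y := rfl

def qneg (X : Q) : Q := ⟨tneg X.c0, tneg X.c1, tneg X.c2, tneg X.c3⟩

theorem qneg_eq (X : Q) : qneg X = X.neg := rfl

def qmulg (X : Q) : Q := ⟨X.c3, tsub X.c0 X.c3, X.c1, X.c2⟩

theorem qmulg_eq (X : Q) : qmulg X = X.mulg := rfl

def qfrob (X : Q) : Q := ⟨X.c0, X.c3, tadd X.c2 X.c3, tadd (tsub X.c1 X.c2) X.c3⟩

theorem qfrob_eq (X : Q) : qfrob X = X.frob := rfl

def p4 (X Y : Q) : T := tadd (tadd (tmul X.c1 Y.c3) (tmul X.c2 Y.c2)) (tmul X.c3 Y.c1)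

def p5 (X Y : Q) : T := tadd (tmul X.c2 Y.c3) (tmul X.c3 Y.c2)

def qmul (X Y : Q) : Q :=
  ⟨tadd (tmul X.c0 Y.c0) (p4 X Y),
    tadd (tsub (tadd (tmul X.c0 Y.c1) (tmul X.c1 Y.c0)) (p4 X Y)) (p5 X Y),
    tadd (tsub (tadd (tadd (tmul X.c0 Y.c2) (tmul X.c1 Y.c1)) (tmul X.c2 Y.c0)) (p5 X Y)) (tmul X.c3 Y.c3),
    tsub (tadd (tadd (tadd (tmul X.c0 Y.c3) (tmul X.c1 Y.c2)) (tmul X.c2 Y.c1)) (tmul X.c3 Y.c0)) (tmul X.c3 Y.c3)⟩

theorem qmul_eq (X Y : Q) : qmul X Y = X.mul Y := rfl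

/-- Forcing of all planes. -/
def fo {α : Type} (x : Q) (k : Q → α) : α :=
  fc x.c0.m fun a0 => fc x.c0.s fun b0 => fc x.c1.m fun a1 => fc x.c1.s fun b1 =>
    fc x.c2.m fun a2 => fc x.c2.s fun b2 => fc x.c3.m fun a3 => fc x.c3.s fun b3 =>
      k ⟨⟨a0, b0⟩, ⟨a1, b1⟩, ⟨a2, b2⟩, ⟨a3, b3⟩⟩

theorem fo_eq {α : Type} (x : Q) (k : Q → α) : fo x k = k x := rfl

/-- The lanes where the value is not zero. -/
def qnz (x : Q) : Nat := Nat.lor (Nat.lor x.c0.m x.c1.m) (Nat.lor x.c2.m x.c3.m)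

theorem qnz_eq (X : Q) : qnz X = X.nz := rfl

end Cfsg.Agent.H728.BS
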