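import Cfsg.Agent.H728.BS.Prog

/-!
# Lane tables for bit-sliced programs (helper728, S5925)

`W` : list of codes (base 3 digits `dg w j`), `Cov F v n W` : the values `v 0 … v (n-1)` are the digits of a code in `W`.
`stage W n k defs cs S` : kernel check; the lanes are `W × {0, …, 3 ^ k - 1}`; `S` : for every code of `W` the list of
the surviving `t < 3 ^ k`.
-/

set_option autoImplicit false

namespace Cfsg.Agent.H728.BS

open Cfsg.Agent.H516.BS

/-- Base 3 digit. -/
def dg (w j : ℕ) : ℕ := Nat.mod (Nat.div w (Nat.pow 3 j)) 3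

theorem dg_lt (w j : ℕ) : dg w j < 3 := Nat.mod_lt _ (by norm_num)

/-- The plane of a function with values in `{0, 1}`: bit `r` belongs to the element with `r` elements behind it. -/
def plf (f : ℕ → ℕ) (W : List ℕ) : ℕ → (ℕ → Bool) → Bool :=
  List.rec (motive := fun _ => ℕ → (ℕ → Bool) → Bool) (fun acc k => k acc)
    (fun w _ ih acc k => fc (Nat.add (Nat.mul 2 acc) (f w)) fun a => ih a k) W

/-- The value of `plf`. -/
def pv (f : ℕ → ℕ) : List ℕ → ℕ → ℕ
  | [], acc => acc
  | w :: W, acc => pv f W (2 * acc + f w)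

theorem plf_eq (f : ℕ → ℕ) (W : List ℕ) (acc : ℕ) (k : ℕ → Bool) : plf f W acc k = k (pv f W acc) := by
  induction W generalizing acc with
  | nil => rfl
  | cons w W ih => exact ih _

theorem pv_eq (f : ℕ → ℕ) (W : List ℕ) (acc : ℕ) : pv f W acc = 2 ^ W.length * acc + pv f W 0 := by
  induction W generalizing acc with
  | nil => simp [pv]
  | cons w W ih =>
    rw [pv, ih, pv, ih (2 * 0 + f w), List.length_cons]
    ring

theorem pv_lt {f : ℕ → ℕ} (hf : ∀ w, f w < 2) (W : List ℕ) : pv f W 0 < 2 ^ W.length := by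
  induction W with
  | nil => simp [pv]
  | cons w W ih =>
    rw [pv, pv_eq, List.length_cons, pow_succ]
    have := hf w
    have h1 : 2 ^ W.length * (2 * 0 + f w) ≤ 2 ^ W.length * 1 := Nat.mul_le_mul_left _ (by omega)
    omega

theorem pv_testBit {f : ℕ → ℕ} (hf : ∀ w, f w < 2) (A : List ℕ) (w : ℕ) (B : List ℕ) :
    (pv f (A ++ w :: B) 0).testBit B.length = decide (f w = 1) := by
  have h : ∀ (A : List ℕ) (acc : ℕ), (pv f (A ++ w :: B) acc).testBit B.length = decide (f w = 1) := by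
    intro A
    induction A with
    | nil =>
      intro acc
      rw [List.nil_append, pv, pv_eq, Nat.testBit_two_pow_mul_add _ (pv_lt hf B), if_neg (lt_irrefl _), Nat.sub_self,
        Nat.testBit_zero]
      have := hf w
      congr 1
      apply propext
      omega
    | cons a A ih =>
      intro acc
      exact ih _
  exact h A 0

/-- Repunit: `b` ones at distance `P`. -/
def rpu (P b : ℕ) : ℕ := Nat.div (Nat.sub (Nat.pow 2 (Nat.mul P b)) 1) (Nat.sub (Nat.pow 2 P) 1)

theorem rpu_zero {P : ℕ} : rpu P 0 = 0 := by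
  show (2 ^ (P * 0) - 1) / (2 ^ P - 1) = 0
  simp

theorem rpu_mul {P : ℕ} (hP : 0 < P) (b : ℕ) : ∃ s, s * (2 ^ P - 1) = 2 ^ (P * b) - 1 ∧ rpu P b = s := by
  have h1 : 1 < 2 ^ P := Nat.one_lt_two_pow (by omega)
  have hd : 2 ^ P - 1 ∣ 2 ^ (P * b) - 1 := by
    rw [pow_mul]
    simpa using Nat.sub_dvd_pow_sub_pow (2 ^ P) 1 b
  obtain ⟨s, hs⟩ := hd
  refine ⟨s, by rw [hs, mul_comm], ?_⟩
  show (2 ^ (P * b) - 1) / (2 ^ P - 1) = s
  rw [hs, Nat.mul_div_cancel_left _ (by omega)]

theorem rpu_succ {P : ℕ} (hP : 0 < P) (b : ℕ) : rpu P (b + 1) = 2 ^ (P * b) + rpu P b := by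
  obtain ⟨s, hs, h1⟩ := rpu_mul hP b
  obtain ⟨s', hs', h2⟩ := rpu_mul hP (b + 1)
  rw [h1, h2]
  have h3 : 1 < 2 ^ P := Nat.one_lt_two_pow (by omega)
  have h4 : 0 < 2 ^ P - 1 := by omega
  apply Nat.eq_of_mul_eq_mul_right h4
  rw [hs', add_mul, hs]
  have h5 : 0 < 2 ^ (P * b) := by positivity
  have h6 : 2 ^ (P * (b + 1)) = 2 ^ (P * b) * 2 ^ P := by rw [mul_add, mul_one, pow_add]
  rw [h6, Nat.mul_sub, mul_one]
  have h7 : 2 ^ (P * b) * 1 ≤ 2 ^ (P * b) * 2 ^ P := Nat.mul_le_mul_left _ (by omega)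
  omega

theorem tile_lt {P : ℕ} (hP : 0 < P) {a : ℕ} (ha : a < 2 ^ P) (b : ℕ) : a * rpu P b < 2 ^ (P * b) := by
  induction b with
  | zero => rw [rpu_zero]; simp
  | succ b ih =>
    rw [rpu_succ hP, mul_add, mul_add, mul_one, pow_add]
    have h : a * 2 ^ (P * b) ≤ (2 ^ P - 1) * 2 ^ (P * b) := Nat.mul_le_mul_right _ (by omega)
    have h2 : 1 < 2 ^ P := Nat.one_lt_two_pow (by omega)
    have h3 : (2 ^ P - 1) * 2 ^ (P * b) + 2 ^ (P * b) = 2 ^ (P * b) * 2 ^ P := by
      obtain ⟨c, hc⟩ : ∃ c, 2 ^ P = c + 1 := ⟨2 ^ P - 1, by omega⟩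
      rw [hc, Nat.add_sub_cancel]
      ring
    omega

theorem tile_testBit {P : ℕ} (hP : 0 < P) {a : ℕ} (ha : a < 2 ^ P) (b i t : ℕ) (hi : i < P) (ht : t < b) :
    (a * rpu P b).testBit (i + P * t) = a.testBit i := by
  induction b with
  | zero => omega
  | succ b ih =>
    rw [rpu_succ hP, mul_add, mul_comm a (2 ^ (P * b)), Nat.testBit_two_pow_mul_add _ (tile_lt hP ha b)]
    rcases Nat.lt_succ_iff_lt_or_eq.1 ht with h | h
    · have h1 : P * t + P ≤ P * b := by
        rw [← Nat.mul_succ]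
        exact Nat.mul_le_mul_left _ h
      rw [if_pos (by omega)]
      exact ih h
    · subst h
      rw [if_neg (by omega), Nat.add_sub_cancel]

/-- Block pattern: ones in `[lo, hi)`. -/
def blk (lo hi : ℕ) : ℕ := Nat.mul (Nat.sub (Nat.pow 2 (Nat.sub hi lo)) 1) (Nat.pow 2 lo)

theorem blk_testBit {lo hi : ℕ} (i : ℕ) (h : lo ≤ hi) : (blk lo hi).testBit i = decide (lo ≤ i ∧ i < hi) := by
  show ((2 ^ (hi - lo) - 1) * 2 ^ lo).testBit i = _
  rw [Nat.testBit_mul_two_pow, Nat.testBit_two_pow_sub_one, ← Bool.decide_and]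
  congr 1
  apply propext
  omega

theorem blk_lt {lo hi : ℕ} (h : lo ≤ hi) : blk lo hi < 2 ^ hi := by
  show (2 ^ (hi - lo) - 1) * 2 ^ lo < 2 ^ hi
  have h1 : 2 ^ hi = 2 ^ (hi - lo) * 2 ^ lo := by rw [← pow_add]; congr 1; omega
  rw [h1]
  apply Nat.mul_lt_mul_of_pos_right _ (by positivity)
  have : 0 < 2 ^ (hi - lo) := by positivity
  omega

/-- The planes of digit `j` of `t` on the lanes `i + n0 * t`, `t < 3 ^ k`. -/
def dgp (n0 k j : ℕ) : T :=
  ⟨Nat.mul (blk (Nat.mul n0 (Nat.pow 3 j)) (Nat.mul n0 (Nat.pow 3 (Nat.succ j))))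
      (rpu (Nat.mul n0 (Nat.pow 3 (Nat.succ j))) (Nat.pow 3 (Nat.sub k (Nat.succ j)))),
    Nat.mul (blk (Nat.mul 2 (Nat.mul n0 (Nat.pow 3 j))) (Nat.mul n0 (Nat.pow 3 (Nat.succ j))))
      (rpu (Nat.mul n0 (Nat.pow 3 (Nat.succ j))) (Nat.pow 3 (Nat.sub k (Nat.succ j))))⟩

theorem dgp_rt {n0 k j i t : ℕ} (hi : i < n0) (hj : j < k) (ht : t < 3 ^ k) :
    (dgp n0 k j).Rt (i + n0 * t) ((dg t j : ℕ) : ZMod 3) := by
  have hn0 : 0 < n0 := by omega
  set B := n0 * 3 ^ j with hB
  have hBpos : 0 < B := by positivity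
  have hP : n0 * 3 ^ (j + 1) = 3 * B := by rw [hB, pow_succ]; ring
  have hPpos : 0 < n0 * 3 ^ (j + 1) := by positivity
  -- position
  set q := t / 3 ^ (j + 1) with hq
  set r := t % 3 ^ (j + 1) with hr
  have htq : t = 3 ^ (j + 1) * q + r := (Nat.div_add_mod t _).symm
  have hrlt : r < 3 ^ (j + 1) := Nat.mod_lt _ (by positivity)
  have hqlt : q < 3 ^ (k - (j + 1)) := by
    apply Nat.div_lt_of_lt_mul
    rw [← pow_add]
    have : j + 1 + (k - (j + 1)) = k := by omega
    rwa [this]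
  have hpos : i + n0 * t = (i + n0 * r) + n0 * 3 ^ (j + 1) * q := by
    rw [htq]
    ring
  have hlt : i + n0 * r < n0 * 3 ^ (j + 1) := by
    have : n0 * (r + 1) ≤ n0 * 3 ^ (j + 1) := Nat.mul_le_mul_left _ hrlt
    rw [mul_add, mul_one] at this
    omega
  have hd : dg t j = r / 3 ^ j := by
    show t / 3 ^ j % 3 = r / 3 ^ j
    have h1 : t / 3 ^ j = 3 * q + r / 3 ^ j := by
      have h2 : t = 3 ^ j * (3 * q) + r := by
        conv_lhs => rw [htq]
        rw [pow_succ]
        ring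
      conv_lhs => rw [h2]
      rw [Nat.mul_add_div (by positivity)]
    have h3 : r / 3 ^ j < 3 := by
      apply Nat.div_lt_of_lt_mul
      rw [← pow_succ]
      exact hrlt
    rw [h1, Nat.mul_add_mod, Nat.mod_eq_of_lt h3]
  -- comparison of i + n0 * r with multiples of B
  have hcmp : ∀ c : ℕ, (c * B ≤ i + n0 * r ↔ c ≤ r / 3 ^ j) := by
    intro c
    rw [Nat.le_div_iff_mul_le (by positivity)]
    constructor
    · intro h
      by_contra hcon
      have h1 : r + 1 ≤ c * 3 ^ j := by omega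
      have h2 : n0 * (r + 1) ≤ n0 * (c * 3 ^ j) := Nat.mul_le_mul_left _ h1
      have h3 : c * B = n0 * (c * 3 ^ j) := by rw [hB]; ring
      rw [mul_add, mul_one] at h2
      omega
    · intro h
      have h2 : n0 * (c * 3 ^ j) ≤ n0 * r := Nat.mul_le_mul_left _ h
      have h3 : c * B = n0 * (c * 3 ^ j) := by rw [hB]; ring
      omega
  have hr3 : r / 3 ^ j < 3 := by
    apply Nat.div_lt_of_lt_mul
    rw [← pow_succ]
    exact hrlt
  constructor
  · show ((blk (n0 * 3 ^ j) (n0 * 3 ^ (j + 1))) * (rpu (n0 * 3 ^ (j + 1)) (3 ^ (k - (j + 1))))).testBit _ = _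
    rw [hpos, tile_testBit hPpos (blk_lt (by rw [hP]; omega)) _ _ _ hlt hqlt, blk_testBit _ (by rw [hP]; omega), hd]
    have h1 := hcmp 1
    rw [one_mul] at h1
    have h2 : r / 3 ^ j = 0 ∨ r / 3 ^ j = 1 ∨ r / 3 ^ j = 2 := by omega
    rcases h2 with h2 | h2 | h2 <;> rw [h2] at h1 ⊢
    · rw [decide_eq_false (by rw [← hB]; omega)]
      decide
    · rw [decide_eq_true (by rw [← hB]; omega)]
      decide
    · rw [decide_eq_true (by rw [← hB]; omega)]
      decide
  · show ((blk (2 * (n0 * 3 ^ j)) (n0 * 3 ^ (j + 1))) * (rpu (n0 * 3 ^ (j + 1)) (3 ^ (k - (j + 1))))).testBit _ = _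
    rw [hpos, tile_testBit hPpos (blk_lt (by rw [hP]; omega)) _ _ _ hlt hqlt, blk_testBit _ (by rw [hP]; omega), hd]
    have h1 := hcmp 2
    have h2 : r / 3 ^ j = 0 ∨ r / 3 ^ j = 1 ∨ r / 3 ^ j = 2 := by omega
    rcases h2 with h2 | h2 | h2 <;> rw [h2] at h1 ⊢
    · rw [decide_eq_false (by rw [← hB]; omega)]
      decide
    · rw [decide_eq_false (by rw [← hB]; omega)]
      decide
    · rw [decide_eq_true (by rw [← hB]; omega)]
      decide

/-- The new planes. -/
def dgs (n0 k : ℕ) : ℕ → ℕ → (List T → Bool) → Bool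
  | 0, _, K => K []
  | r + 1, j, K => fc (dgp n0 k j).m fun a => fc (dgp n0 k j).s fun b => dgs n0 k r (Nat.succ j) fun l => K (⟨a, b⟩ :: l)

def fm (j w : ℕ) : ℕ := Nat.sub 1 (Nat.sub 1 (dg w j))

def fs (j w : ℕ) : ℕ := Nat.sub (dg w j) 1

theorem fm_lt (j w : ℕ) : fm j w < 2 := by
  show 1 - (1 - dg w j) < 2
  omega

theorem fs_lt (j w : ℕ) : fs j w < 2 := by
  show dg w j - 1 < 2
  have := dg_lt w j
  omega

/-- The tiled planes of the digits of `W`. -/
def wds (W : List ℕ) (R : ℕ) : ℕ → ℕ → (List T → Bool) → Bool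
  | 0, _, K => K []
  | r + 1, j, K => plf (fm j) W 0 fun a => plf (fs j) W 0 fun b => fc (Nat.mul a R) fun a => fc (Nat.mul b R) fun b =>
      wds W R r (Nat.succ j) fun l => K (⟨a, b⟩ :: l)

/-- The mask of the survivors. -/
def mk1 (n0 r : ℕ) (ts : List ℕ) : ℕ → (ℕ → Bool) → Bool :=
  List.rec (motive := fun _ => ℕ → (ℕ → Bool) → Bool) (fun acc k => k acc)
    (fun t _ ih acc k => fc (Nat.lor acc (Nat.pow 2 (Nat.add r (Nat.mul n0 t)))) fun a => ih a k) ts

def mk2 (n0 : ℕ) : List (List ℕ) → ℕ → (ℕ → Bool) → Bool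
  | [], acc, k => k acc
  | ts :: S, acc, k => mk1 n0 S.length ts acc fun a => mk2 n0 S a k

/-- The next list of codes. -/
def next (c : ℕ) : List ℕ → List (List ℕ) → List ℕ
  | w :: W, ts :: S => (ts.map fun t => w + c * t) ++ next c W S
  | _, _ => []

/-- **The check of a stage.** -/
noncomputable def stage (W : List ℕ) (n k : ℕ) (defs cs : List Ex) (S : List (List ℕ)) : Bool :=
  Bool.rec (motive := fun _ => Bool) false
    (fc W.length fun n0 => fc (Nat.pow 3 k) fun K3 => fc (rpu n0 K3) fun R => wds W R n 0 fun l1 => dgs n0 k k 0 fun l2 =>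
      mk2 n0 S 0 fun m => chk (Nat.mul n0 K3) (l1 ++ l2) defs cs m) (Nat.beq S.length W.length)

section sound

variable {F : Type*} [Field F] [CharP F 3] {g : F} {v : ℕ → F}

/-- The first `n` values are the digits of a code of `W`. -/
def Cov (F : Type*) [Field F] [CharP F 3] (v : ℕ → F) (n : ℕ) (W : List ℕ) : Prop :=
  ∃ w ∈ W, ∀ j < n, v j = io F ((dg w j : ℕ) : ZMod 3)

/-- All lanes of a list of planes. -/
def LaneV (i L : ℕ) (d : ℕ → ℕ) (ts : List T) : Prop :=
  ∀ j (h : j < ts.length), ts[j].Rt i ((d (L + j) : ℕ) : ZMod 3)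

theorem dgs_eq (n0 k r j : ℕ) (K : List T → Bool) :
    dgs n0 k r j K = K ((List.range' j r).map fun j => dgp n0 k j) := by
  induction r generalizing j K with
  | zero => rfl
  | succ r ih =>
    show dgs n0 k r (j + 1) (fun l => K (dgp n0 k j :: l)) = _
    rw [ih, List.range'_succ, List.map_cons]

def wdp (W : List ℕ) (R j : ℕ) : T := ⟨pv (fm j) W 0 * R, pv (fs j) W 0 * R⟩

theorem wds_eq (W : List ℕ) (R r j : ℕ) (K : List T → Bool) :
    wds W R r j K = K ((List.range' j r).map fun j => wdp W R j) := by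
  induction r generalizing j K with
  | zero => rfl
  | succ r ih =>
    show plf (fm j) W 0 (fun a => plf (fs j) W 0 fun b => wds W R r (j + 1) fun l => K (⟨a * R, b * R⟩ :: l)) = _
    rw [plf_eq, plf_eq, ih, List.range'_succ, List.map_cons]
    rfl

theorem wdp_rt (A : List ℕ) (w : ℕ) (B : List ℕ) {K3 t : ℕ} (ht : t < K3) (j : ℕ) :
    (wdp (A ++ w :: B) (rpu (A ++ w :: B).length K3) j).Rt (B.length + (A ++ w :: B).length * t)
      ((dg w j : ℕ) : ZMod 3) := by
  have hl : B.length < (A ++ w :: B).length := by simp; omega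
  have h3 := dg_lt w j
  have h : dg w j = 0 ∨ dg w j = 1 ∨ dg w j = 2 := by omega
  constructor
  · show (pv (fm j) (A ++ w :: B) 0 * rpu (A ++ w :: B).length K3).testBit _ = _
    rw [tile_testBit (by omega) (pv_lt (fm_lt j) _) _ _ _ hl ht, pv_testBit (fm_lt j)]
    have e : fm j w = 1 - (1 - dg w j) := rfl
    rcases h with h | h | h <;> rw [e, h] <;> decide
  · show (pv (fs j) (A ++ w :: B) 0 * rpu (A ++ w :: B).length K3).testBit _ = _
    rw [tile_testBit (by omega) (pv_lt (fs_lt j) _) _ _ _ hl ht, pv_testBit (fs_lt j)]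
    have e : fs j w = dg w j - 1 := rfl
    rcases h with h | h | h <;> rw [e, h] <;> decide

/-- value of `mk1` -/
def mv1 (n0 r : ℕ) : List ℕ → ℕ → ℕ
  | [], acc => acc
  | t :: ts, acc => mv1 n0 r ts (acc ||| 2 ^ (r + n0 * t))

theorem mk1_eq (n0 r : ℕ) (ts : List ℕ) (acc : ℕ) (k : ℕ → Bool) : mk1 n0 r ts acc k = k (mv1 n0 r ts acc) := by
  induction ts generalizing acc with
  | nil => rfl
  | cons t ts ih => exact ih _

def mv2 (n0 : ℕ) : List (List ℕ) → ℕ → ℕ
  | [], acc => acc
  | ts :: S, acc => mv2 n0 S (mv1 n0 S.length ts acc)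

theorem mk2_eq (n0 : ℕ) (S : List (List ℕ)) (acc : ℕ) (k : ℕ → Bool) : mk2 n0 S acc k = k (mv2 n0 S acc) := by
  induction S generalizing acc with
  | nil => rfl
  | cons ts S ih =>
    show mk1 n0 S.length ts acc (fun a => mk2 n0 S a k) = _
    rw [mk1_eq, ih]
    rfl

theorem mv1_testBit {n0 r : ℕ} {ts : List ℕ} {acc p : ℕ} (h : (mv1 n0 r ts acc).testBit p = true) :
    acc.testBit p = true ∨ ∃ t ∈ ts, p = r + n0 * t := by
  induction ts generalizing acc with
  | nil => exact Or.inl h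
  | cons t ts ih =>
    rcases ih h with h1 | ⟨t', ht', h1⟩
    · rw [Nat.testBit_or, Nat.testBit_two_pow, Bool.or_eq_true] at h1
      rcases h1 with h1 | h1
      · exact Or.inl h1
      · exact Or.inr ⟨t, List.mem_cons_self, (of_decide_eq_true h1).symm⟩
    · exact Or.inr ⟨t', List.mem_cons_of_mem _ ht', h1⟩

theorem mv2_testBit {n0 : ℕ} {S : List (List ℕ)} {acc p : ℕ} (h : (mv2 n0 S acc).testBit p = true) :
    acc.testBit p = true ∨ ∃ A ts B, S = A ++ ts :: B ∧ ∃ t ∈ ts, p = B.length + n0 * t := by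
  induction S generalizing acc with
  | nil => exact Or.inl h
  | cons ts S ih =>
    rcases ih h with h1 | ⟨A, ts', B, hS, h1⟩
    · rcases mv1_testBit h1 with h2 | h2
      · exact Or.inl h2
      · exact Or.inr ⟨[], ts, S, rfl, h2⟩
    · exact Or.inr ⟨ts :: A, ts', B, by rw [hS]; rfl, h1⟩

theorem mem_next {c : ℕ} : ∀ {A : List ℕ} {w : ℕ} {B : List ℕ} {A' : List (List ℕ)} {ts : List ℕ} {B' : List (List ℕ)}
    (_ : A.length = A'.length) {t : ℕ} (_ : t ∈ ts), w + c * t ∈ next c (A ++ w :: B) (A' ++ ts :: B') := by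
  intro A
  induction A with
  | nil =>
    intro w B A' ts B' hA t ht
    have : A' = [] := List.length_eq_zero_iff.1 hA.symm
    subst this
    simp only [List.nil_append, next, List.mem_append, List.mem_map]
    exact Or.inl ⟨t, ht, rfl⟩
  | cons a A ih =>
    intro w B A' ts B' hA t ht
    cases A' with
    | nil => simp at hA
    | cons a' A' =>
      simp only [List.cons_append, next, List.mem_append]
      exact Or.inr (ih (by simpa using hA) ht)

theorem lane_of {i : ℕ} (ts : List T) (L : ℕ) (h : ∀ j (hj : j < ts.length), ∃ c : ZMod 3, v (L + j) = io F c ∧ ts[j].Rt i c) :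
    Lane F i v L ts := by
  induction ts generalizing L with
  | nil => trivial
  | cons t ts ih =>
    refine ⟨?_, ih (L + 1) ?_⟩
    · obtain ⟨c, h1, h2⟩ := h 0 (by simp)
      exact ⟨c, h1, h2⟩
    · intro j hj
      obtain ⟨c, h1, h2⟩ := h (j + 1) (by simpa using hj)
      exact ⟨c, by rw [show L + 1 + j = L + (j + 1) by omega]; exact h1, h2⟩

theorem exists_digits (d : ℕ → ℕ) (hd : ∀ j, d j < 3) (k : ℕ) : ∃ t < 3 ^ k, ∀ j < k, dg t j = d j := by
  induction k with
  | zero => exact ⟨0, by norm_num, fun j hj => absurd hj (Nat.not_lt_zero _)⟩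
  | succ k ih =>
    obtain ⟨t, ht, h⟩ := ih
    refine ⟨t + 3 ^ k * d k, ?_, ?_⟩
    · have := hd k
      have h1 : 3 ^ k * d k ≤ 3 ^ k * 2 := Nat.mul_le_mul_left _ (by omega)
      rw [pow_succ]
      omega
    · intro j hj
      show (t + 3 ^ k * d k) / 3 ^ j % 3 = d j
      rcases Nat.lt_succ_iff_lt_or_eq.1 hj with h1 | h1
      · have h2 : 3 ^ k * d k = 3 ^ j * (3 * (3 ^ (k - j - 1) * d k)) := by
          have : 3 ^ k = 3 ^ j * (3 * 3 ^ (k - j - 1)) := by
            rw [← pow_succ', ← pow_add]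
            congr 1
            omega
          rw [this]
          ring
        rw [h2, Nat.add_mul_div_left _ _ (by positivity), Nat.add_mul_mod_self_left]
        exact h j h1
      · subst h1
        rw [Nat.add_mul_div_left _ _ (by positivity), Nat.div_eq_of_lt ht, zero_add, Nat.mod_eq_of_lt (hd j)]

theorem dg_add {w t n j : ℕ} (hw : w < 3 ^ n) :
    dg (w + 3 ^ n * t) j = if j < n then dg w j else dg t (j - n) := by
  show (w + 3 ^ n * t) / 3 ^ j % 3 = _
  split_ifs with h
  · have h2 : 3 ^ n * t = 3 ^ j * (3 * (3 ^ (n - j - 1) * t)) := by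
      have : 3 ^ n = 3 ^ j * (3 * 3 ^ (n - j - 1)) := by
        rw [← pow_succ', ← pow_add]
        congr 1
        omega
      rw [this]
      ring
    rw [h2, Nat.add_mul_div_left _ _ (by positivity), Nat.add_mul_mod_self_left]
    rfl
  · have h1 : 3 ^ j = 3 ^ n * 3 ^ (j - n) := by
      rw [← pow_add]
      congr 1
      omega
    rw [h1, ← Nat.div_div_eq_div_mul, Nat.add_mul_div_left _ _ (by positivity), Nat.div_eq_of_lt hw, zero_add]
    rfl

/-- **Soundness of a stage.** -/
theorem stage_sound (hg : g ^ 4 = -g + 1) {W : List ℕ} {n k : ℕ} {defs cs : List Ex} {S : List (List ℕ)}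
    (h : stage W n k defs cs S = true) (hW : ∀ w ∈ W, w < 3 ^ n) (hc : Cov F v n W)
    (hk : ∀ j < k, ∃ c : ZMod 3, v (n + j) = io F c) (hd : Defs g v (n + k) defs) (hcs : ∀ c ∈ cs, c.eval g v = 0) :
    Cov F v (n + k) (next (3 ^ n) W S) := by
  unfold stage at h
  by_cases hl : Nat.beq S.length W.length = true
  swap
  · rw [Bool.not_eq_true] at hl
    rw [hl] at h
    exact absurd (show false = true from h) (by decide)
  rw [hl] at h
  have hlen : S.length = W.length := Nat.eq_of_beq_eq_true hl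
  have h1 : (wds W (rpu W.length (3 ^ k)) n 0 fun l1 => dgs W.length k k 0 fun l2 =>
      mk2 W.length S 0 fun m => chk (W.length * 3 ^ k) (l1 ++ l2) defs cs m) = true := h
  rw [wds_eq, dgs_eq, mk2_eq] at h1
  obtain ⟨w, hw, hv⟩ := hc
  obtain ⟨A, B, rfl⟩ := List.append_of_mem hw
  -- the digits of the new part
  choose! c hcv using hk
  obtain ⟨t, ht, htd⟩ := exists_digits (fun j => (c j).val) (fun j => ZMod.val_lt (c j)) k
  have htc : ∀ j < k, v (n + j) = io F ((dg t j : ℕ) : ZMod 3) := by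
    intro j hj
    rw [hcv j hj, htd j hj, ZMod.natCast_val, ZMod.cast_id', id]
  have hBl : B.length < (A ++ w :: B).length := by simp; omega
  have hi : B.length + (A ++ w :: B).length * t < (A ++ w :: B).length * 3 ^ k := by
    have : (A ++ w :: B).length * (t + 1) ≤ (A ++ w :: B).length * 3 ^ k := Nat.mul_le_mul_left _ ht
    rw [mul_add, mul_one] at this
    omega
  have hts : (((List.range' 0 n).map fun j => wdp (A ++ w :: B) (rpu (A ++ w :: B).length (3 ^ k)) j) ++
      ((List.range' 0 k).map fun j => dgp (A ++ w :: B).length k j)).length = n + k := by simp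
  have hlane : Lane F (B.length + (A ++ w :: B).length * t) v 0
      (((List.range' 0 n).map fun j => wdp (A ++ w :: B) (rpu (A ++ w :: B).length (3 ^ k)) j) ++
      ((List.range' 0 k).map fun j => dgp (A ++ w :: B).length k j)) := by
    apply lane_of
    intro j hj
    rw [hts] at hj
    rw [zero_add]
    by_cases hjn : j < n
    · refine ⟨((dg w j : ℕ) : ZMod 3), hv j hjn, ?_⟩
      rw [List.getElem_append_left (by simpa using hjn)]
      simp only [List.getElem_map, List.getElem_range', zero_add, one_mul]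
      exact wdp_rt A w B ht j
    · refine ⟨((dg t (j - n) : ℕ) : ZMod 3), ?_, ?_⟩
      · rw [← htc (j - n) (by omega)]
        congr 1
        omega
      · rw [List.getElem_append_right (by simpa using hjn)]
        simp only [List.getElem_map, List.getElem_range', List.length_map, List.length_range', zero_add, one_mul]
        exact dgp_rt hBl (by omega) ht
  have hm := chk_sound hg h1 hi hlane (by rw [hts]; exact hd) hcs
  rcases mv2_testBit hm with h2 | ⟨A', ts, B', hS, t', ht', hp⟩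
  · rw [Nat.zero_testBit] at h2
    exact absurd h2 (by decide)
  · have hB'l : B'.length < (A ++ w :: B).length := by
      rw [← hlen, hS]
      simp
      omega
    have hn0 : 0 < (A ++ w :: B).length := by omega
    have e1 : B.length = B'.length := by
      have h5 := congrArg (· % (A ++ w :: B).length) hp
      simp only [Nat.add_mul_mod_self_left] at h5
      rwa [Nat.mod_eq_of_lt hBl, Nat.mod_eq_of_lt hB'l] at h5
    have e2 : t = t' := by
      rw [e1] at hp
      have h3 : (A ++ w :: B).length * t = (A ++ w :: B).length * t' := by omega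
      exact Nat.eq_of_mul_eq_mul_left hn0 h3
    subst e2
    have e3 : A.length = A'.length := by
      have := hlen
      rw [hS] at this
      simp only [List.length_append, List.length_cons] at this
      omega
    rw [hS]
    refine ⟨w + 3 ^ n * t, mem_next e3 ht', ?_⟩
    intro j hj
    rw [dg_add (hW w hw)]
    split_ifs with hjn
    · exact hv j hjn
    · rw [← htc (j - n) (by omega)]
      congr 1
      omega

end sound

end Cfsg.Agent.H728.BS
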